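import Cfsg.Agent.Lib.Helper58.OmSyl.Defs

set_option autoImplicit false

namespace Cfsg.Agent.Lib.Helper54.OmSyl

open Cfsg Cfsg.Agent.Lib.Helper58.WrSyl Cfsg.Agent.Lib.Helper44 Cfsg.Agent.Lib.Helper58.OmSyl
open QuadraticMap Module

variable {F : Type*} [Field F]

/-- the determinant on the orthogonal group of the plane -/
noncomputable def detHomU1 (F : Type*) [Field F] : OQ (QU F) →* Fˣ :=
  LinearEquiv.det.comp (OQ (QU F)).subtype

/-- the matrix of an element -/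
noncomputable def matU1 (g : OQ (QU F)) : Matrix (Fin 2) (Fin 2) F :=
  LinearMap.toMatrix' ((g : (Fin 2 → F) ≃ₗ[F] (Fin 2 → F)) : (Fin 2 → F) →ₗ[F] (Fin 2 → F))

theorem detHom_val_U1 (g : OQ (QU F)) : ((detHomU1 F g : Fˣ) : F) = (matU1 g).det := by
  simp [detHomU1, matU1, LinearEquiv.coe_det, LinearMap.det_toMatrix']

theorem mulVec_U1 (g : OQ (QU F)) (v : Fin 2 → F) :
    (g : (Fin 2 → F) ≃ₗ[F] (Fin 2 → F)) v = (matU1 g).mulVec v := by
  rw [matU1, LinearMap.toMatrix'_mulVec]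
  rfl

theorem rel_U1 (h2 : (2 : F) ≠ 0) (g : OQ (QU F)) :
    matU1 g 0 0 * matU1 g 0 0 + matU1 g 1 0 * matU1 g 1 0 = 1 ∧
    matU1 g 0 1 * matU1 g 0 1 + matU1 g 1 1 * matU1 g 1 1 = 1 ∧
    matU1 g 0 0 * matU1 g 0 1 + matU1 g 1 0 * matU1 g 1 1 = 0 := by
  have h := mem_OQ.1 g.2
  have h0 := h ![1, 0]
  have h1 := h ![0, 1]
  have h3 := h ![1, 1]
  rw [QU_apply, QU_apply, mulVec_U1] at h0 h1 h3
  simp [Matrix.mulVec, dotProduct, Fin.sum_univ_two] at h0 h1 h3
  refine ⟨h0, h1, ?_⟩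
  have : (2 : F) * (matU1 g 0 0 * matU1 g 0 1 + matU1 g 1 0 * matU1 g 1 1) = 0 := by
    linear_combination h3 - h0 - h1
  exact (mul_eq_zero.mp this).resolve_left h2

theorem det_U1 (h2 : (2 : F) ≠ 0) (g : OQ (QU F)) :
    (matU1 g).det = 1 ∨ (matU1 g).det = -1 := by
  obtain ⟨h0, h1, h3⟩ := rel_U1 h2 g
  rw [Matrix.det_fin_two]
  apply mul_self_eq_one_iff.mp
  linear_combination (matU1 g 0 1 * matU1 g 0 1 + matU1 g 1 1 * matU1 g 1 1) * h0 + h1
    - (matU1 g 0 0 * matU1 g 0 1 + matU1 g 1 0 * matU1 g 1 1) * h3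

theorem sq_U1 (h2 : (2 : F) ≠ 0) (g : OQ (QU F)) (hd : (matU1 g).det = -1) : g ^ 2 = 1 := by
  obtain ⟨h0, h1, h3⟩ := rel_U1 h2 g
  rw [Matrix.det_fin_two] at hd
  have hda : matU1 g 1 1 = - matU1 g 0 0 := by
    linear_combination (-(matU1 g 1 1)) * h0 + matU1 g 0 0 * hd + matU1 g 1 0 * h3
  have hbc : matU1 g 0 1 = matU1 g 1 0 := by
    linear_combination (-(matU1 g 0 1)) * h0 + matU1 g 0 0 * h3 - matU1 g 1 0 * hd
  have hM : matU1 g * matU1 g = 1 := by
    ext i j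
    fin_cases i <;> fin_cases j <;>
      simp [Matrix.mul_apply, Fin.sum_univ_two, hda, hbc]
    · linear_combination h0
    · ring
    · ring
    · linear_combination h0
  apply Subtype.ext
  apply LinearEquiv.ext
  intro v
  rw [pow_two]
  show (g : (Fin 2 → F) ≃ₗ[F] (Fin 2 → F)) ((g : (Fin 2 → F) ≃ₗ[F] (Fin 2 → F)) v) = v
  rw [mulVec_U1, mulVec_U1, Matrix.mulVec_mulVec, hM, Matrix.one_mulVec]

/-- the swap of the two coordinates -/
noncomputable def swapU1 (F : Type*) [Field F] : OQ (QU F) :=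
  ⟨LinearEquiv.funCongrLeft F F (Equiv.swap 0 1), by
    rw [mem_OQ]
    intro v
    rw [QU_apply, QU_apply]
    simp [LinearEquiv.funCongrLeft_apply, LinearMap.funLeft_apply]
    ring⟩

theorem det_swap_U1 : (matU1 (swapU1 F)).det = -1 := by
  rw [Matrix.det_fin_two]
  simp [matU1, swapU1, LinearMap.toMatrix'_apply, LinearMap.funLeft_apply]

/-- [U1] -/
theorem genDih_OQU {F : Type*} [Field F] (h2 : (2 : F) ≠ 0) : GenDih (OQ (QU F)) := by
  have hne : (-1 : F) ≠ 1 := by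
    intro h
    apply h2
    linear_combination -h
  have hmem : ∀ g : OQ (QU F), g ∈ (detHomU1 F).ker ↔ (matU1 g).det = 1 := by
    intro g
    rw [MonoidHom.mem_ker, ← detHom_val_U1, Units.ext_iff, Units.val_one]
  have hmul : ∀ g h : OQ (QU F), (matU1 (g * h)).det = (matU1 g).det * (matU1 h).det := by
    intro g h
    rw [← detHom_val_U1, ← detHom_val_U1, ← detHom_val_U1, map_mul, Units.val_mul]
  refine ⟨(detHomU1 F).ker, ?_, ?_⟩
  · rw [Subgroup.index_eq_two_iff]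
    refine ⟨swapU1 F, fun b => ?_⟩
    rw [hmem, hmem, hmul, det_swap_U1]
    rcases det_U1 h2 b with h | h
    · rw [h]
      right
      exact ⟨rfl, by simpa using hne⟩
    · rw [h]
      left
      exact ⟨by ring, hne⟩
  · intro s hs
    rw [hmem] at hs
    exact sq_U1 h2 s ((det_U1 h2 s).resolve_left hs)

end Cfsg.Agent.Lib.Helper54.OmSyl
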