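import Cfsg.Agent.Lib.Helper58.OmSyl.Defs
import Cfsg.Agent.Lib.Helper44.Index
import Cfsg.Agent.Lib.Helper44.Transport
import Cfsg.Agent.Lib.Helper14.DiscClass
import Cfsg.Agent.Lib.Helper14.StdMinus
import Cfsg.Agent.Lib.Helper91.OmSyl.D1
import Cfsg.Agent.Lib.Helper91.OmSyl.D2
import Cfsg.Agent.S0287
import Cfsg.Agent.S0288

set_option autoImplicit false

namespace Cfsg.Agent.Lib.Helper54.OmSyl

open Cfsg Cfsg.Agent.Lib.Helper58.WrSyl Cfsg.Agent.Lib.Helper44 Cfsg.Agent.Lib.Helper14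
open Cfsg.Agent.Lib.Helper58.OmSyl Cfsg.Agent.Lib.Helper91.OmSyl
open QuadraticMap Module

theorem fact_mul_odd_U2 (a b : ℕ) (ha : a ≠ 0) (hb : ¬ 2 ∣ b) :
    (a * b).factorization 2 = a.factorization 2 := by
  have hb0 : b ≠ 0 := by
    rintro rfl
    exact hb (dvd_zero _)
  rw [Nat.factorization_mul ha hb0, Finsupp.add_apply,
    Nat.factorization_eq_zero_of_not_dvd hb, add_zero]

theorem arith1_U2 (q : ℕ) (h : q % 4 = 1) :
    (2 * (q - 1)).factorization 2 = (q ^ 2 - 1).factorization 2 := by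
  obtain ⟨k, rfl⟩ : ∃ k, q = 4 * k + 1 := ⟨q / 4, by omega⟩
  have e1 : (4 * k + 1) ^ 2 - 1 = (2 * (4 * k + 1 - 1)) * (2 * k + 1) := by
    have : (4 * k + 1) ^ 2 = (2 * (4 * k + 1 - 1)) * (2 * k + 1) + 1 := by
      simp only [Nat.add_sub_cancel]
      ring
    omega
  rw [e1]
  rcases Nat.eq_zero_or_pos k with rfl | hk
  · simp
  · rw [fact_mul_odd_U2 (2 * (4 * k + 1 - 1)) (2 * k + 1) (by omega) (by omega)]

theorem arith3_U2 (q : ℕ) (h : q % 4 = 3) :
    (2 * (q + 1)).factorization 2 = (q ^ 2 - 1).factorization 2 := by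
  obtain ⟨k, rfl⟩ : ∃ k, q = 4 * k + 3 := ⟨q / 4, by omega⟩
  have e1 : (4 * k + 3) ^ 2 - 1 = (2 * (4 * k + 3 + 1)) * (2 * k + 1) := by
    have : (4 * k + 3) ^ 2 = (2 * (4 * k + 3 + 1)) * (2 * k + 1) + 1 := by ring
    omega
  rw [e1, fact_mul_odd_U2 (2 * (4 * k + 3 + 1)) (2 * k + 1) (by omega) (by omega)]

theorem disc_QU_U2 {F : Type*} [Field F] : HasDisc (polarBilin (QU F)) (2 * 2 : F) := by
  have h := hasDisc_wss (F := F) (ι := Fin 2) (fun _ => (1 : F))
  rw [Fin.prod_univ_two, mul_one] at h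
  exact h

/-- [U2] -/
theorem val_OQU {F : Type*} [Field F] [Fintype F] (h2 : (2 : F) ≠ 0) :
    (Nat.card (OQ (QU F))).factorization 2 = (Fintype.card F ^ 2 - 1).factorization 2 := by
  have hdU := disc_QU_U2 (F := F)
  have hndU : (polarBilin (QU F)).Nondegenerate := hdU.nondegenerate (mul_ne_zero h2 h2)
  have hchar : ringChar F ≠ 2 := by
    intro h
    apply h2
    have := ringChar.Nat.cast_ringChar (R := F)
    rw [h] at this
    exact_mod_cast this
  have hodd := FiniteField.odd_card_of_char_ne_two hchar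
  have hcases : Fintype.card F % 4 = 1 ∨ Fintype.card F % 4 = 3 := by omega
  rcases hcases with h4 | h4
  · have hm1 : IsSquare (-1 : F) := FiniteField.isSquare_neg_one_iff.mpr (by omega)
    obtain ⟨d, hd⟩ := exists_hasDisc (polarBilin (plusQ 1 F))
    have hds : IsSquare d := (plus_disc_isSquare_iff F h2 1 d hd).mpr (by simpa using hm1)
    obtain ⟨e⟩ := oq_equiv_of_disc h2 (QU F) (plusQ 1 F) hndU (plusQ_nondegenerate 1 F)
      (by simp) _ _ hdU hd (IsSquare.mul ⟨2, rfl⟩ hds)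
    have hc : Nat.card (OQ (QU F)) = 2 * (Fintype.card F - 1) := by
      rw [Nat.card_congr e.toEquiv, ← Nat.card_congr (isoEquiv (plusQ 1 F)).toEquiv, plusQ_coe,
        Cfsg.Agent.S0287.result rfl 1 le_rfl]
      simp
    rw [hc]
    exact arith1_U2 _ h4
  · have hm1 : ¬ IsSquare (-1 : F) := fun h => (FiniteField.isSquare_neg_one_iff.mp h) h4
    have hab : ∀ z₁ z₂ : F, z₁ ^ 2 + 0 * z₁ * z₂ + 1 * z₂ ^ 2 = 0 → z₁ = 0 ∧ z₂ = 0 := by
      intro z₁ z₂ h
      have hz2 : z₂ = 0 := by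
        by_contra hz
        apply hm1
        refine ⟨z₁ / z₂, ?_⟩
        field_simp
        linear_combination -h
      subst hz2
      refine ⟨?_, rfl⟩
      have : z₁ ^ 2 = 0 := by linear_combination h
      exact pow_eq_zero_iff (two_ne_zero) |>.mp this
    obtain ⟨d, hd⟩ := exists_hasDisc (polarBilin (minusQF 0 F 0 1))
    have hds : IsSquare d := (minus_disc_isSquare_iff 0 F h2 hab d hd).mpr (by simpa using hm1)
    obtain ⟨e⟩ := oq_equiv_of_disc h2 (QU F) (minusQF 0 F 0 1) hndU (minusQF_nondeg 0 F hab)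
      (by simp) _ _ hdU hd (IsSquare.mul ⟨2, rfl⟩ hds)
    have hc : Nat.card (OQ (QU F)) = 2 * (Fintype.card F + 1) := by
      rw [Nat.card_congr e.toEquiv, ← Nat.card_congr (isoEquiv (minusQF 0 F 0 1)).toEquiv,
        minusQF_coe]
      have := Cfsg.Agent.S0288.result (F := F) rfl 1 le_rfl 0 1 hab
      simp only [Nat.sub_self] at this
      rw [this]
      simp
    rw [hc]
    exact arith3_U2 _ h4

end Cfsg.Agent.Lib.Helper54.OmSyl
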